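import Cfsg.Agent.H140.TC.SpOdd

/-!
# S2464, `PSp_8(q)`, `q` odd: definitions and boxes

`x = (X₃, 1)` in the Levi subgroup `GL_3 × Sp_2`; every noncentral `g` (up to sign) is conjugate to `lo T * lv A * up S`
with `p`, `φ` such that `T(p) = 0`, `S(φ) = 0`, `φ(p) = φ(A⁻¹ p) ≠ 0`.

* `qf T p` : the value of the quadratic form `T` at `p`.
* `ds A B` : the direct sum of square matrices, on `Fin (a + b)`.
* `dl a b (g, h)` : `Sp_2a × Sp_2b → Sp_2(a+b)`.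
-/

set_option autoImplicit false

namespace Cfsg.Agent.H917.TC8

open Matrix Cfsg.Agent.H140.TC.Sp

variable {F : Type*} [Field F] {a b n : ℕ}

/-- the value of the quadratic form with matrix `T` -/
def qf {n : ℕ} (T : Matrix (Fin n) (Fin n) F) (p : Fin n → F) : F := p ⬝ᵥ (T *ᵥ p)

/-- direct sum of two square matrices -/
def ds (A : Matrix (Fin a) (Fin a) F) (B : Matrix (Fin b) (Fin b) F) : Matrix (Fin (a + b)) (Fin (a + b)) F :=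
  (fromBlocks A 0 0 B).submatrix finSumFinEquiv.symm finSumFinEquiv.symm

theorem ds_mul (A A' : Matrix (Fin a) (Fin a) F) (B B' : Matrix (Fin b) (Fin b) F) :
    ds A B * ds A' B' = ds (A * A') (B * B') := by
  unfold ds
  rw [Matrix.submatrix_mul_equiv, fromBlocks_multiply]
  simp

theorem ds_add (A A' : Matrix (Fin a) (Fin a) F) (B B' : Matrix (Fin b) (Fin b) F) :
    ds A B + ds A' B' = ds (A + A') (B + B') := by
  have h : fromBlocks (A + A') 0 0 (B + B') = fromBlocks A 0 0 B + fromBlocks A' 0 0 B' := by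
    rw [fromBlocks_add]; simp
  unfold ds
  rw [h]
  rfl

theorem ds_sub (A A' : Matrix (Fin a) (Fin a) F) (B B' : Matrix (Fin b) (Fin b) F) :
    ds A B - ds A' B' = ds (A - A') (B - B') := by
  have h : fromBlocks (A - A') 0 0 (B - B') = fromBlocks A 0 0 B - fromBlocks A' 0 0 B' := by
    rw [sub_eq_add_neg (fromBlocks A 0 0 B), fromBlocks_neg, fromBlocks_add, sub_eq_add_neg, sub_eq_add_neg]; simp
  unfold ds
  rw [h]
  rfl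

theorem ds_transpose (A : Matrix (Fin a) (Fin a) F) (B : Matrix (Fin b) (Fin b) F) : (ds A B)ᵀ = ds Aᵀ Bᵀ := by
  unfold ds
  rw [Matrix.transpose_submatrix, fromBlocks_transpose]
  simp

theorem ds_one : ds (1 : Matrix (Fin a) (Fin a) F) (1 : Matrix (Fin b) (Fin b) F) = 1 := by
  unfold ds
  rw [fromBlocks_one, Matrix.submatrix_one_equiv]

theorem ds_zero : ds (0 : Matrix (Fin a) (Fin a) F) (0 : Matrix (Fin b) (Fin b) F) = 0 := by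
  unfold ds
  rw [fromBlocks_zero]
  rfl

theorem ds_neg (A : Matrix (Fin a) (Fin a) F) (B : Matrix (Fin b) (Fin b) F) : -(ds A B) = ds (-A) (-B) := by
  have h : fromBlocks (-A) 0 0 (-B) = -fromBlocks A 0 0 B := by
    rw [fromBlocks_neg]; simp
  unfold ds
  rw [h]
  rfl

theorem eq_blocks (g : G n F) : ∃ A B C D : Matrix (Fin n) (Fin n) F, (g : Matrix _ _ F) = fromBlocks A B C D :=
  ⟨_, _, _, _, (fromBlocks_toBlocks _).symm⟩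

/-- the matrix of `dl` -/
def dm (g : Matrix (Fin a ⊕ Fin a) (Fin a ⊕ Fin a) F) (h : Matrix (Fin b ⊕ Fin b) (Fin b ⊕ Fin b) F) :
    Matrix (Fin (a + b) ⊕ Fin (a + b)) (Fin (a + b) ⊕ Fin (a + b)) F :=
  fromBlocks (ds g.toBlocks₁₁ h.toBlocks₁₁) (ds g.toBlocks₁₂ h.toBlocks₁₂) (ds g.toBlocks₂₁ h.toBlocks₂₁)
    (ds g.toBlocks₂₂ h.toBlocks₂₂)

theorem dm_blocks (A B C D : Matrix (Fin a) (Fin a) F) (A' B' C' D' : Matrix (Fin b) (Fin b) F) :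
    dm (fromBlocks A B C D) (fromBlocks A' B' C' D') = fromBlocks (ds A A') (ds B B') (ds C C') (ds D D') := by
  unfold dm
  simp only [toBlocks_fromBlocks₁₁, toBlocks_fromBlocks₁₂, toBlocks_fromBlocks₂₁, toBlocks_fromBlocks₂₂]

theorem dm_mem (g : G a F) (h : G b F) : dm (g : Matrix (Fin a ⊕ Fin a) (Fin a ⊕ Fin a) F)
    (h : Matrix (Fin b ⊕ Fin b) (Fin b ⊕ Fin b) F) ∈ Matrix.symplecticGroup (Fin (a + b)) F := by
  obtain ⟨A, B, C, D, k⟩ := eq_blocks g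
  obtain ⟨A', B', C', D', k'⟩ := eq_blocks h
  have m := g.2
  have m' := h.2
  rw [k, mem_iff] at m
  rw [k', mem_iff] at m'
  rw [k, k', dm_blocks, mem_iff]
  simp only [ds_transpose, ds_mul, ds_sub, m.1, m.2.1, m.2.2.1, m.2.2.2, m'.1, m'.2.1, m'.2.2.1, m'.2.2.2, ds_one,
    and_self]

/-- the block sum -/
def dd (g : G a F) (h : G b F) : G (a + b) F := ⟨dm g.1 h.1, dm_mem g h⟩

theorem dd_coe (g : G a F) (h : G b F) : ((dd g h : G (a + b) F) : Matrix (Fin (a + b) ⊕ Fin (a + b)) (Fin (a + b) ⊕ Fin (a + b)) F) =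
    dm g.1 h.1 := rfl

theorem dm_mul (g g' : Matrix (Fin a ⊕ Fin a) (Fin a ⊕ Fin a) F) (h h' : Matrix (Fin b ⊕ Fin b) (Fin b ⊕ Fin b) F) :
    dm (g * g') (h * h') = dm g h * dm g' h' := by
  obtain ⟨A, B, C, D, rfl⟩ : ∃ A B C D, g = fromBlocks A B C D := ⟨_, _, _, _, (fromBlocks_toBlocks _).symm⟩
  obtain ⟨A', B', C', D', rfl⟩ : ∃ A B C D, h = fromBlocks A B C D := ⟨_, _, _, _, (fromBlocks_toBlocks _).symm⟩
  obtain ⟨P, Q, R, S, rfl⟩ : ∃ A B C D, g' = fromBlocks A B C D := ⟨_, _, _, _, (fromBlocks_toBlocks _).symm⟩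
  obtain ⟨P', Q', R', S', rfl⟩ : ∃ A B C D, h' = fromBlocks A B C D := ⟨_, _, _, _, (fromBlocks_toBlocks _).symm⟩
  simp only [fromBlocks_multiply, dm_blocks, ds_mul, ds_add]

theorem dm_one : dm (1 : Matrix (Fin a ⊕ Fin a) (Fin a ⊕ Fin a) F) (1 : Matrix (Fin b ⊕ Fin b) (Fin b ⊕ Fin b) F) = 1 := by
  rw [← fromBlocks_one, ← fromBlocks_one, dm_blocks, ds_one, ds_zero, fromBlocks_one]

theorem dd_mul (g g' : G a F) (h h' : G b F) : dd (g * g') (h * h') = dd g h * dd g' h' := by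
  apply Subtype.ext
  rw [Submonoid.coe_mul, dd_coe, dd_coe, dd_coe, ← dm_mul]
  rfl

/-- `Sp_2a × Sp_2b → Sp_2(a+b)` -/
def dl (a b : ℕ) (F : Type*) [Field F] : G a F × G b F →* G (a + b) F where
  toFun x := dd x.1 x.2
  map_one' := Subtype.ext dm_one
  map_mul' x y := dd_mul _ _ _ _

theorem dl_apply (g : G a F) (h : G b F) : dl a b F (g, h) = dd g h := rfl

theorem dl_coe {g : G a F} {h : G b F} {A B C D : Matrix (Fin a) (Fin a) F} {A' B' C' D' : Matrix (Fin b) (Fin b) F}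
    (hg : (g : Matrix _ _ F) = fromBlocks A B C D) (hh : (h : Matrix _ _ F) = fromBlocks A' B' C' D') :
    (dl a b F (g, h) : Matrix _ _ F) = fromBlocks (ds A A') (ds B B') (ds C C') (ds D D') := by
  rw [← dm_blocks, ← hg, ← hh]
  rfl

/-- the negative -/
def nG (g : G n F) : G n F := ⟨-(g : Matrix (Fin n ⊕ Fin n) (Fin n ⊕ Fin n) F), SymplecticGroup.neg_mem g.2⟩

theorem nG_coe (g : G n F) : ((nG g : G n F) : Matrix (Fin n ⊕ Fin n) (Fin n ⊕ Fin n) F) =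
    -(g : Matrix (Fin n ⊕ Fin n) (Fin n ⊕ Fin n) F) := rfl

/-! ### boxes -/

/-- **box A** : two forms on a space of dimension 4 and its dual. If no `p`, `φ` exist then `T` and `S` are anisotropic of
rank 2 and `rad S` is the annihilator of `rad T`. -/
def Forms4 : Prop := ∀ (F : Type) [Field F] [Finite F] (_ : (2 : F) ≠ 0) (T S : Matrix (Fin 4) (Fin 4) F)
  (_ : Tᵀ = T) (_ : Sᵀ = S), (∃ p φ : Fin 4 → F, qf T p = 0 ∧ qf S φ = 0 ∧ φ ⬝ᵥ p ≠ 0) ∨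
    ∃ (R : GL (Fin 4) F) (T₁ S₂ : Matrix (Fin 2) (Fin 2) F), T₁ᵀ = T₁ ∧ S₂ᵀ = S₂ ∧
      (R : Matrix (Fin 4) (Fin 4) F)ᵀ * T * (R : Matrix (Fin 4) (Fin 4) F) = ds (a := 2) (b := 2) T₁ 0 ∧
      ((R⁻¹ : GL (Fin 4) F) : Matrix (Fin 4) (Fin 4) F) * S * ((R⁻¹ : GL (Fin 4) F) : Matrix (Fin 4) (Fin 4) F)ᵀ =
        ds (a := 2) (b := 2) 0 S₂

/-- **box B** : two forms on a space of dimension 2 and its dual. -/
def Forms2 : Prop := ∀ (F : Type) [Field F] [Finite F] (_ : (2 : F) ≠ 0) (T S : Matrix (Fin 2) (Fin 2) F)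
  (_ : Tᵀ = T) (_ : Sᵀ = S), (∃ p φ : Fin 2 → F, qf T p = 0 ∧ qf S φ = 0 ∧ φ ⬝ᵥ p ≠ 0) ∨
    (∀ p, qf T p = 0 → p = 0) ∨ (∀ φ, qf S φ = 0 → φ = 0) ∨
    ∃ (R : GL (Fin 2) F) (s t : F),
      (R : Matrix (Fin 2) (Fin 2) F)ᵀ * T * (R : Matrix (Fin 2) (Fin 2) F) = !![s, 0; 0, 0] ∧
      ((R⁻¹ : GL (Fin 2) F) : Matrix (Fin 2) (Fin 2) F) * S * ((R⁻¹ : GL (Fin 2) F) : Matrix (Fin 2) (Fin 2) F)ᵀ =
        !![0, 0; 0, t]

/-- **box B'** : `T₁`, `T₂` anisotropic. -/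
def Forms22 : Prop := ∀ (F : Type) [Field F] [Finite F] (_ : (2 : F) ≠ 0) (T₁ S₁ T₂ S₂ : Matrix (Fin 2) (Fin 2) F)
  (_ : T₁ᵀ = T₁) (_ : S₁ᵀ = S₁) (_ : T₂ᵀ = T₂) (_ : S₂ᵀ = S₂) (_ : ∀ p, qf T₁ p = 0 → p = 0)
  (_ : ∀ p, qf T₂ p = 0 → p = 0), ∃ u w α β : Fin 2 → F, qf T₁ u + qf T₂ w = 0 ∧ qf S₁ α + qf S₂ β = 0 ∧
    ((β ⬝ᵥ w = 0 ∧ α ⬝ᵥ u ≠ 0) ∨ (α ⬝ᵥ u = 0 ∧ β ⬝ᵥ w ≠ 0))

/-- **box C** : two forms on a space of dimension 3 and its dual, `T ≠ 0`. -/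
def Forms3 : Prop := ∀ (F : Type) [Field F] [Finite F] (_ : (2 : F) ≠ 0) (T S : Matrix (Fin 3) (Fin 3) F)
  (_ : Tᵀ = T) (_ : Sᵀ = S) (_ : T ≠ 0), ∃ x v φ : Fin 3 → F, qf T x = 0 ∧ x ⬝ᵥ (T *ᵥ v) = 0 ∧ qf T v ≠ 0 ∧
    φ ⬝ᵥ x ≠ 0 ∧ qf S φ + 4 / qf T v * (φ ⬝ᵥ v) ^ 2 = 0

/-- **box D** : the decomposition `V = P' ⊥ P₁` of `H144.War.exists_split` in matrices (`n = 4`, up to sign). -/
def Split4 : Prop := ∀ (F : Type) [Field F] [Finite F] (_ : (2 : F) ≠ 0) (g : G 4 F), ∃ g' t : G 4 F,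
  (g' = g ∨ g' = nG g) ∧
    ((∃ (T S : Matrix (Fin 4) (Fin 4) F) (hT : Tᵀ = T) (hS : Sᵀ = S), t * g' * t⁻¹ = lo T hT * up S hS) ∨
     (∃ (T₁ S₁ : Matrix (Fin 3) (Fin 3) F) (T₂ S₂ : Matrix (Fin 1) (Fin 1) F) (hT₁ : T₁ᵀ = T₁) (hS₁ : S₁ᵀ = S₁)
        (hT₂ : T₂ᵀ = T₂) (hS₂ : S₂ᵀ = S₂),
        t * g' * t⁻¹ = dl 3 1 F (lo T₁ hT₁ * up S₁ hS₁, nG (lo T₂ hT₂ * up S₂ hS₂))) ∨
     (∃ (T₁ S₁ T₂ S₂ : Matrix (Fin 2) (Fin 2) F) (hT₁ : T₁ᵀ = T₁) (hS₁ : S₁ᵀ = S₁)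
        (hT₂ : T₂ᵀ = T₂) (hS₂ : S₂ᵀ = S₂),
        t * g' * t⁻¹ = dl 2 2 F (lo T₁ hT₁ * up S₁ hS₁, nG (lo T₂ hT₂ * up S₂ hS₂))))

end Cfsg.Agent.H917.TC8
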